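import Mathlib.GroupTheory.Sylow
import Mathlib.GroupTheory.SpecificGroups.Cyclic
import Mathlib.GroupTheory.Index
import Mathlib.Tactic.Group
import Mathlib.Tactic.Linarith

/-!
Groups with the order and the element orders of `PSL(2, q)`: first consequences.
-/

set_option autoImplicit false

namespace Cfsg.Agent.OrderSpecPSL

/-- `G` has the order and element orders of `PSL(2, p^k)`; `a = (q-1)/d`, `b = (q+1)/d`. -/
structure Hyp (G : Type*) [Group G] (p k a b d : ℕ) : Prop where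
  prime : p.Prime
  four : 4 ≤ p ^ k
  ha : d * a + 1 = p ^ k
  hb : d * b = p ^ k + 1
  hd : (d = 1 ∧ p = 2) ∨ (d = 2 ∧ p ≠ 2)
  card : Nat.card G = p ^ k * (d * (a * b))
  spec : ∀ n : ℕ, n ∈ Set.range (orderOf : G → ℕ) ↔ n ∣ a ∨ n ∣ b ∨ n = p

variable {G : Type*} [Group G] {p k a b d : ℕ}

namespace Hyp

theorem k_pos (h : Hyp G p k a b d) : 0 < k := by
  rcases Nat.eq_zero_or_pos k with rfl | h0
  · have := h.four; simp at this
  · exact h0

theorem d_pos (h : Hyp G p k a b d) : 0 < d ∧ d ≤ 2 := by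
  rcases h.hd with ⟨rfl, -⟩ | ⟨rfl, -⟩ <;> omega

theorem a_pos (h : Hyp G p k a b d) : 0 < a := by
  rcases Nat.eq_zero_or_pos a with rfl | h0
  · have := h.four; have := h.ha; omega
  · exact h0

theorem b_pos (h : Hyp G p k a b d) : 0 < b := by
  rcases Nat.eq_zero_or_pos b with rfl | h0
  · have := h.hb; omega
  · exact h0

theorem p_dvd_q (h : Hyp G p k a b d) : p ∣ p ^ k := dvd_pow_self p h.k_pos.ne'

theorem not_dvd_da (h : Hyp G p k a b d) : ¬ p ∣ d * a := fun hd =>
  h.prime.ne_one (Nat.dvd_one.mp ((Nat.dvd_add_right hd).mp (h.ha ▸ h.p_dvd_q)))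

theorem not_dvd_db (h : Hyp G p k a b d) : ¬ p ∣ d * b := fun hd =>
  h.prime.ne_one (Nat.dvd_one.mp ((Nat.dvd_add_right h.p_dvd_q).mp (h.hb ▸ hd)))

theorem not_dvd_a (h : Hyp G p k a b d) : ¬ p ∣ a := fun hd =>
  h.not_dvd_da (dvd_mul_of_dvd_right hd d)

theorem not_dvd_b (h : Hyp G p k a b d) : ¬ p ∣ b := fun hd =>
  h.not_dvd_db (dvd_mul_of_dvd_right hd d)

theorem not_dvd_rest (h : Hyp G p k a b d) : ¬ p ∣ d * (a * b) := fun hd => by
  rw [← mul_assoc] at hd
  exact (h.prime.dvd_mul.mp hd).elim h.not_dvd_da h.not_dvd_b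

theorem coprime_rest (h : Hyp G p k a b d) (n : ℕ) : (p ^ n).Coprime (d * (a * b)) :=
  (h.prime.coprime_iff_not_dvd.mpr h.not_dvd_rest).pow_left n

theorem coprime_ab (h : Hyp G p k a b d) : a.Coprime b := by
  have h1 := h.ha
  have h2 := h.hb
  rw [Nat.coprime_iff_gcd_eq_one]
  set g := a.gcd b with hg
  have hga : g ∣ a := Nat.gcd_dvd_left a b
  have hgb : g ∣ b := Nat.gcd_dvd_right a b
  rcases h.hd with ⟨rfl, rfl⟩ | ⟨rfl, -⟩
  · have hb' : b = a + 2 := by omega
    have h3 : g ∣ 2 := (Nat.dvd_add_right hga).mp (hb' ▸ hgb)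
    rcases (Nat.dvd_prime Nat.prime_two).mp h3 with e | e
    · exact e
    · exact absurd (e ▸ hga) h.not_dvd_a
  · have hb' : b = a + 1 := by omega
    exact Nat.dvd_one.mp ((Nat.dvd_add_right hga).mp (hb' ▸ hgb))

theorem not_mul_prime_order (h : Hyp G p k a b d) {g : G} {r : ℕ} (hg : orderOf g = p * r)
    (hr : 1 < r) : False := by
  rcases (h.spec _).mp ⟨g, hg⟩ with h1 | h1 | h1
  · exact h.not_dvd_a ((dvd_mul_right p r).trans h1)
  · exact h.not_dvd_b ((dvd_mul_right p r).trans h1)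
  · have := h.prime.pos; nlinarith

theorem orderOf_eq (h : Hyp G p k a b d) {y : G} (hp : p ∣ orderOf y) : orderOf y = p := by
  rcases (h.spec _).mp ⟨y, rfl⟩ with h1 | h1 | h1
  · exact absurd (hp.trans h1) h.not_dvd_a
  · exact absurd (hp.trans h1) h.not_dvd_b
  · exact h1

/-- Centralisers of elements of order `p` have exponent `p`. -/
theorem pow_eq_one_of_commute [Finite G] (h : Hyp G p k a b d) {x y : G} (hx : x ≠ 1)
    (hxp : x ^ p = 1) (hc : Commute x y) : y ^ p = 1 := by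
  haveI : Fact p.Prime := ⟨h.prime⟩
  by_cases hp : p ∣ orderOf y
  · rw [← h.orderOf_eq hp]; exact pow_orderOf_eq_one y
  · have hxo : orderOf x = p := orderOf_eq_prime hxp hx
    have hco : (orderOf x).Coprime (orderOf y) := by
      rw [hxo]; exact h.prime.coprime_iff_not_dvd.mpr hp
    have h1 := hc.orderOf_mul_eq_mul_orderOf_of_coprime hco
    rw [hxo] at h1
    by_contra hne
    refine h.not_mul_prime_order h1 ?_
    have := orderOf_pos y
    by_contra hlt
    have hy1 : y = 1 := orderOf_eq_one_iff.mp (by omega)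
    exact hne (by rw [hy1, one_pow])

theorem pow_eq_one_of_pgroup [Finite G] (h : Hyp G p k a b d) {P : Subgroup G} (hP : IsPGroup p P)
    {y : G} (hy : y ∈ P) : y ^ p = 1 := by
  haveI : Fact p.Prime := ⟨h.prime⟩
  obtain ⟨i, hi⟩ := hP ⟨y, hy⟩
  have hi' : y ^ p ^ i = 1 := congrArg Subtype.val hi
  obtain ⟨j, -, hj⟩ := (Nat.dvd_prime_pow h.prime).mp (orderOf_dvd_of_pow_eq_one hi')
  rcases Nat.eq_zero_or_pos j with rfl | h0
  · rw [pow_zero, orderOf_eq_one_iff] at hj
    rw [hj, one_pow]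
  · rw [← h.orderOf_eq (hj ▸ dvd_pow_self p h0.ne')]; exact pow_orderOf_eq_one y

theorem card_sylow_subgroup [Finite G] [Fact p.Prime] (h : Hyp G p k a b d) (P : Sylow p G) :
    Nat.card (P : Subgroup G) = p ^ k := by
  obtain ⟨m, hm⟩ := IsPGroup.iff_card.mp P.2
  refine Nat.dvd_antisymm ?_ (P.pow_dvd_card_of_pow_dvd_card (h.card ▸ dvd_mul_right _ _))
  have h1 := Subgroup.card_subgroup_dvd_card (P : Subgroup G)
  rw [h.card, hm] at h1
  rw [hm]
  exact (h.coprime_rest m).dvd_of_dvd_mul_right h1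

/-- Elements of order prime to `p` fix no non-trivial `p`-element. -/
theorem eq_one_of_commute [Finite G] (h : Hyp G p k a b d) {x y : G} (hxp : x ^ p = 1)
    (hy : y ^ p ≠ 1) (hc : Commute x y) : x = 1 :=
  by_contra fun hx => hy (h.pow_eq_one_of_commute hx hxp hc)

end Hyp

/-- A subgroup acting without fixed points has order dividing the number of points. -/
theorem card_dvd_of_free {α : Type*} {H : Type*} [Group H] [MulAction H α]
    (hfree : ∀ x : α, MulAction.stabilizer H x = ⊥) : Nat.card H ∣ Nat.card α := by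
  rw [Nat.card_congr (MulAction.selfEquivOrbitsQuotientProd hfree), Nat.card_prod]
  exact dvd_mul_left _ _

end Cfsg.Agent.OrderSpecPSL
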