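import Cfsg.Agent.OrderSpecPSL.Basic
import Cfsg.Agent.CharInd.CN.Main
import Cfsg.Prelude.Def_LieExceptional

/-!
Centralisers of elements of odd prime order; odd order subgroups are solvable.
-/

set_option autoImplicit false

namespace Cfsg.Agent.OrderSpecPSL.Hyp

open Subgroup

variable {G : Type*} [Group G] [Finite G] {p k a b d : ℕ}

theorem exists_order (h : Hyp G p k a b d) {n : ℕ} (hn : n ∣ a ∨ n ∣ b) :
    ∃ g : G, orderOf g = n :=
  (h.spec n).mpr (hn.elim Or.inl fun h1 => Or.inr (Or.inl h1))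

/-- The elements of odd order commuting with an element of odd prime order `r ≠ p` lie in a cyclic
subgroup. -/
theorem exists_cyclic_of_odd_prime (h : Hyp G p k a b d) {x : G} {r : ℕ} (hr : r.Prime) (hr2 : r ≠ 2)
    (hrp : r ≠ p) (hx : orderOf x = r) :
    ∃ β : G, ∀ y : G, Commute x y → Odd (orderOf y) → y ∈ zpowers β := by
  classical
  haveI : Fact r.Prime := ⟨hr⟩
  obtain ⟨m, m', hmm, hrm, hcop, hmul, hmp⟩ :
      ∃ m m' : ℕ, ((m = a ∧ m' = b) ∨ (m = b ∧ m' = a)) ∧ r ∣ m ∧ m.Coprime m' ∧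
        Nat.card G = (p ^ k * (d * m')) * m ∧ ¬ p ∣ m := by
    rcases (h.spec r).mp ⟨x, hx⟩ with h1 | h1 | h1
    · exact ⟨a, b, Or.inl ⟨rfl, rfl⟩, h1, h.coprime_ab, by rw [h.card]; ring, h.not_dvd_a⟩
    · exact ⟨b, a, Or.inr ⟨rfl, rfl⟩, h1, h.coprime_ab.symm, by rw [h.card]; ring, h.not_dvd_b⟩
    · exact absurd h1 hrp
  have hm0 : m ≠ 0 := by
    rcases hmm with ⟨rfl, -⟩ | ⟨rfl, -⟩
    · exact h.a_pos.ne'
    · exact h.b_pos.ne'
  have hrm' : ¬ r ∣ p ^ k * (d * m') := by
    intro hd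
    rcases hr.dvd_mul.mp hd with h1 | h1
    · exact hrp ((Nat.prime_dvd_prime_iff_eq hr h.prime).mp (hr.dvd_of_dvd_pow h1))
    · rcases hr.dvd_mul.mp h1 with h2 | h2
      · have := Nat.le_of_dvd h.d_pos.1 h2
        have := h.d_pos.2
        have := hr.two_le
        omega
      · exact hr.ne_one (Nat.Coprime.eq_one_of_dvd (hcop.coprime_dvd_left hrm) h2)
  obtain ⟨α, hα⟩ := h.exists_order (n := m) (by rcases hmm with ⟨rfl, -⟩ | ⟨rfl, -⟩ <;> simp)
  -- a cyclic Sylow `r`-subgroup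
  set v := m.factorization r with hv
  have hrv : r ^ v ∣ m := Nat.ordProj_dvd m r
  set γ := α ^ (m / r ^ v) with hγ
  have hγo : orderOf γ = r ^ v := by
    rw [hγ, ← hα, orderOf_pow_orderOf_div (by rw [hα]; exact hm0) (hα ▸ hrv)]
  have hfac : (Nat.card G).factorization r = v := by
    rw [hmul, Nat.factorization_mul (by
      have := h.b_pos; have := h.a_pos; have := h.d_pos.1; have := h.prime.pos
      rcases hmm with ⟨-, rfl⟩ | ⟨-, rfl⟩ <;> positivity) hm0]
    simp [Nat.factorization_eq_zero_of_not_dvd hrm', hv]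
  let R : Sylow r G := Sylow.ofCard (zpowers γ) (by rw [Nat.card_zpowers, hγo, hfac])
  obtain ⟨S, hS⟩ := (IsPGroup.of_card (p := r) (G := zpowers x) (n := 1)
    (by rw [Nat.card_zpowers, hx, pow_one])).exists_le_sylow
  obtain ⟨g, hg⟩ := MulAction.exists_smul_eq G R S
  have hxS : x ∈ (S : Subgroup G) := hS (mem_zpowers x)
  rw [← hg] at hxS
  obtain ⟨z, hz, hzx⟩ := hxS
  change z ∈ zpowers γ at hz
  obtain ⟨i, rfl⟩ := mem_zpowers_iff.mp hz
  set β := g * α * g⁻¹ with hβ
  have hβo : orderOf β = m := by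
    rw [hβ, ← MulAut.conj_apply, MulEquiv.orderOf_eq, hα]
  have hxβ : x ∈ zpowers β := by
    rw [← hzx]
    refine mem_zpowers_iff.mpr ⟨((m / r ^ v : ℕ) : ℤ) * i, ?_⟩
    simp only [hβ, hγ, MulDistribMulAction.toMonoidEnd_apply,
      MulDistribMulAction.toMonoidHom_apply, MulAut.smul_def, MulAut.conj_apply,
      ← zpow_natCast α, ← zpow_mul, conj_zpow]
  -- the centraliser of `x` has order dividing `d * m`
  let K := centralizer ({x} : Set G)
  have hK : ∀ y : G, y ∈ K ↔ Commute x y := fun y => mem_centralizer_singleton_iff.trans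
    ⟨fun e => e.symm, fun e => e.symm⟩
  have hKp : ∀ s : ℕ, s.Prime → s ∣ Nat.card K → s ∣ m := by
    intro s hs hd
    haveI : Fact s.Prime := ⟨hs⟩
    obtain ⟨y, hy⟩ := exists_prime_orderOf_dvd_card' s hd
    have hy' : orderOf (y : G) = s := by rw [Subgroup.orderOf_coe, hy]
    have hc : Commute x (y : G) := (hK _).mp y.2
    by_cases hsr : s = r
    · exact hsr ▸ hrm
    have h1 := hc.orderOf_mul_eq_mul_orderOf_of_coprime
      (by rw [hx, hy']; exact (Nat.coprime_primes hr hs).mpr fun e => hsr e.symm)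
    rw [hx, hy'] at h1
    have hother : ¬ r * s ∣ m' := fun hd =>
      hr.ne_one (Nat.Coprime.eq_one_of_dvd (hcop.coprime_dvd_left hrm) ((dvd_mul_right r s).trans hd))
    rcases (h.spec _).mp ⟨x * (y : G), h1⟩ with h2 | h2 | h2
    · rcases hmm with ⟨rfl, rfl⟩ | ⟨rfl, rfl⟩
      · exact (dvd_mul_left s r).trans h2
      · exact absurd h2 hother
    · rcases hmm with ⟨rfl, rfl⟩ | ⟨rfl, rfl⟩
      · exact absurd h2 hother
      · exact (dvd_mul_left s r).trans h2
    · have := hs.two_le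
      exact absurd (h2 ▸ dvd_mul_right r s)
        (fun e => hrp ((Nat.prime_dvd_prime_iff_eq hr h.prime).mp e))
  have hKd : Nat.card K ∣ d * m := by
    have h1 : (Nat.card K).Coprime (p ^ k * m') := by
      refine Nat.coprime_of_dvd fun s hs h2 h3 => ?_
      have h4 := hKp s hs h2
      rcases hs.dvd_mul.mp h3 with h5 | h5
      · exact hmp ((Nat.prime_dvd_prime_iff_eq hs h.prime).mp (hs.dvd_of_dvd_pow h5) ▸ h4)
      · exact hs.ne_one (Nat.Coprime.eq_one_of_dvd (hcop.coprime_dvd_left h4) h5)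
    have h2 := Subgroup.card_subgroup_dvd_card K
    rw [hmul, show p ^ k * (d * m') * m = p ^ k * m' * (d * m) by ring] at h2
    exact h1.dvd_of_dvd_mul_left h2
  have hβK : β ∈ K := (hK _).mpr (by
    obtain ⟨j, rfl⟩ := mem_zpowers_iff.mp hxβ
    exact (Commute.refl β).zpow_left j)
  refine ⟨β, fun y hy hodd => ?_⟩
  let B : Subgroup K := zpowers (⟨β, hβK⟩ : K)
  have hBc : Nat.card B = m := by rw [Nat.card_zpowers, Subgroup.orderOf_mk, hβo]
  have hidx : B.index ∣ d := by
    have h1 := B.card_mul_index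
    rw [hBc] at h1
    rw [← h1, mul_comm d m] at hKd
    exact Nat.dvd_of_mul_dvd_mul_left (Nat.pos_of_ne_zero hm0) hKd
  have hmem : (⟨y, (hK _).mpr hy⟩ : K) ∈ B := by
    set yK : K := ⟨y, (hK _).mpr hy⟩ with hyK
    have hsq : yK ^ 2 ∈ B := by
      have := Nat.le_of_dvd h.d_pos.1 hidx
      have := h.d_pos.2
      rcases Nat.lt_or_ge B.index 2 with h1 | h1
      · have h0 := B.index_ne_zero_of_finite
        have hB : B = ⊤ := Subgroup.index_eq_one.mp (by omega)
        rw [hB]; exact mem_top _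
      · exact Subgroup.sq_mem_of_index_two (by omega) _
    obtain ⟨j, hj⟩ := hodd
    have h2 : (yK ^ 2) ^ (j + 1) = yK := by
      rw [← pow_mul, show 2 * (j + 1) = (2 * j + 1) + 1 by ring, pow_succ, ← hj,
        ← Subgroup.orderOf_mk y ((hK _).mpr hy), pow_orderOf_eq_one, one_mul]
    rw [← h2]; exact pow_mem hsq _
  obtain ⟨j, hj⟩ := mem_zpowers_iff.mp hmem
  exact mem_zpowers_iff.mpr ⟨j, by simpa using congrArg Subtype.val hj⟩

theorem isCNGroup_of_odd (h : Hyp G p k a b d) (M : Subgroup G) (hM : Odd (Nat.card M)) :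
    Cfsg.IsCNGroup M := by
  intro g hg
  haveI : Fact p.Prime := ⟨h.prime⟩
  have hcomm : ∀ y : centralizer ({g} : Set M), Commute (g : G) ((y : M) : G) := fun y => by
    have := mem_centralizer_singleton_iff.mp y.2
    exact (congrArg (fun z : M => (z : G)) this).symm
  have hg' : (g : G) ≠ 1 := fun e => hg (Subtype.ext e)
  by_cases hp : p ∣ orderOf (g : G)
  · refine IsPGroup.isNilpotent (p := p) fun y => ⟨1, ?_⟩
    refine Subtype.ext (Subtype.ext ?_)
    simpa using h.pow_eq_one_of_commute hg' (by rw [← h.orderOf_eq hp, pow_orderOf_eq_one]) (hcomm y)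
  · have hn1 : orderOf (g : G) ≠ 1 := fun e => hg' (orderOf_eq_one_iff.mp e)
    set r := (orderOf (g : G)).minFac with hr
    have hrp : r.Prime := Nat.minFac_prime hn1
    have hrd : r ∣ orderOf (g : G) := Nat.minFac_dvd _
    have hgM : Odd (orderOf (g : G)) := hM.of_dvd_nat (M.orderOf_dvd_natCard g.2)
    have hr2 : r ≠ 2 := fun e => by
      rw [e] at hrd
      exact Nat.not_even_iff_odd.mpr hgM (even_iff_two_dvd.mpr hrd)
    obtain ⟨β, hβ⟩ := h.exists_cyclic_of_odd_prime hrp hr2 (fun e => hp (e ▸ hrd))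
      (orderOf_pow_orderOf_div (orderOf_pos (g : G)).ne' hrd)
    have hab : ∀ y z : centralizer ({g} : Set M), y * z = z * y := by
      intro y z
      obtain ⟨i, hi⟩ := mem_zpowers_iff.mp (hβ _ ((hcomm y).pow_left _)
        (hM.of_dvd_nat (M.orderOf_dvd_natCard (y : M).2)))
      obtain ⟨j, hj⟩ := mem_zpowers_iff.mp (hβ _ ((hcomm z).pow_left _)
        (hM.of_dvd_nat (M.orderOf_dvd_natCard (z : M).2)))
      refine Subtype.ext (Subtype.ext ?_)
      simp only [Subgroup.coe_mul, ← hi, ← hj]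
      exact ((Commute.refl β).zpow_zpow i j).eq
    letI : CommGroup (centralizer ({g} : Set M)) := { (inferInstance : Group _) with mul_comm := hab }
    infer_instance

theorem isSolvable_of_odd (h : Hyp G p k a b d) (M : Subgroup G) (hM : Odd (Nat.card M)) :
    Group.IsSolvable M :=
  CharInd.CN.isSolvable_of_isCNGroup hM (h.isCNGroup_of_odd M hM)

end Cfsg.Agent.OrderSpecPSL.Hyp
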