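import Cfsg.Agent.OrderSpecPSL.TI
import Cfsg.Agent.PermB.Recognition
import Mathlib.GroupTheory.SchurZassenhaus

/-!
Such a group has `q + 1` Sylow `p`-subgroups and acts on them as a Zassenhaus group.
-/

set_option autoImplicit false

namespace Cfsg.Agent.OrderSpecPSL.Hyp

open Subgroup MulAction Cfsg.Agent.PermB

variable {G : Type*} [Group G] [Finite G] {p k a b d : ℕ} [Fact p.Prime]

theorem eq_of_mem (h : Hyp G p k a b d) {P Q : Sylow p G} {u : G} (hu : u ∈ (P : Subgroup G))
    (huQ : u ∈ (Q : Subgroup G)) (hu1 : u ≠ 1) : P = Q := by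
  by_contra hne
  exact hu1 (mem_bot.mp (h.ti P Q hne ▸ mem_inf.mpr ⟨hu, huQ⟩))

/-- An element of a Sylow subgroup normalising another one is trivial. -/
theorem eq_one_of_smul (h : Hyp G p k a b d) {P R : Sylow p G} (hPR : R ≠ P) {u : G}
    (hu : u ∈ (P : Subgroup G)) (huR : u • R = R) : u = 1 := by
  by_contra hu1
  have huN := Sylow.smul_eq_iff_mem_normalizer.mp huR
  have hp : IsPGroup p (zpowers u) := P.2.to_le (zpowers_le.mpr hu)
  have h1 := hp.to_sup_of_normal_right' R.2 (zpowers_le.mpr huN)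
  have h2 : (zpowers u ⊔ (R : Subgroup G) : Subgroup G) = R :=
    R.3 h1 le_sup_right
  exact hPR (h.eq_of_mem hu (h2 ▸ mem_sup_left (mem_zpowers u)) hu1).symm

/-- Elements normalising a Sylow subgroup and commuting with one of its non-trivial elements lie
in it. -/
theorem mem_of_normalizer_commute (h : Hyp G p k a b d) {P : Sylow p G} {u g : G}
    (hu : u ∈ (P : Subgroup G)) (hu1 : u ≠ 1) (hgP : g • P = P) (hc : Commute u g) :
    g ∈ (P : Subgroup G) := by
  have hgN := Sylow.smul_eq_iff_mem_normalizer.mp hgP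
  have hgp : IsPGroup p (zpowers g) := fun y => ⟨1, Subtype.ext (by
    obtain ⟨j, hj⟩ := mem_zpowers_iff.mp y.2
    simp only [SubmonoidClass.coe_pow, pow_one, OneMemClass.coe_one]
    exact h.pow_eq_one_of_commute hu1 (h.pow_eq_one_of_pgroup P.2 hu) (hj ▸ hc.zpow_right j))⟩
  have h1 := hgp.to_sup_of_normal_right' P.2 (zpowers_le.mpr hgN)
  exact (P.3 h1 le_sup_right) ▸ mem_sup_left (mem_zpowers g)

theorem card_normalizer (h : Hyp G p k a b d) (P : Sylow p G) :
    ∃ c, Nat.card (normalizer ((P : Subgroup G) : Set G)) = p ^ k * c ∧ c ∣ p ^ k - 1 := by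
  set N := normalizer ((P : Subgroup G) : Set G) with hN
  set P' := (P : Subgroup G).subgroupOf N with hP'
  haveI : P'.Normal := normal_in_normalizer
  have hPc : Nat.card P' = p ^ k :=
    (Nat.card_congr (subgroupOfEquivOfLe le_normalizer).toEquiv).trans (h.card_sylow_subgroup P)
  have hidx := P'.card_mul_index
  have hco : (Nat.card P').Coprime P'.index := by
    rw [hPc]
    have h1 := Subgroup.card_subgroup_dvd_card N
    rw [← hidx, hPc, h.card] at h1
    exact (h.coprime_rest k).coprime_dvd_right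
      (Nat.dvd_of_mul_dvd_mul_left (pow_pos h.prime.pos k) h1)
  obtain ⟨K, hK⟩ := exists_right_complement'_of_coprime hco
  refine ⟨P'.index, by rw [← hidx, hPc], ?_⟩
  have hKc : Nat.card K = P'.index := (hK.symm.index_eq_card).symm
  rw [← hKc]
  let α := {u : G // u ∈ (P : Subgroup G) ∧ u ≠ 1}
  letI : MulAction K α :=
    { smul := fun g u => ⟨((g : N) : G) * u * ((g : N) : G)⁻¹,
        (mem_normalizer_iff.mp (g : N).2 _).mp u.2.1, fun e => u.2.2 (conj_eq_one_iff.mp e)⟩
      one_smul := fun u => Subtype.ext (by show (1 : G) * u * (1 : G)⁻¹ = u; group)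
      mul_smul := fun g g' u => Subtype.ext (by
        show ((g : N) : G) * ((g' : N) : G) * u * (((g : N) : G) * ((g' : N) : G))⁻¹ =
          ((g : N) : G) * (((g' : N) : G) * u * ((g' : N) : G)⁻¹) * ((g : N) : G)⁻¹
        group) }
  have hα : Nat.card α = p ^ k - 1 := by
    classical
    haveI : Fintype G := Fintype.ofFinite G
    haveI : Fintype (P : Subgroup G) := Fintype.ofFinite _
    rw [← h.card_sylow_subgroup P, Nat.card_congr (α := α) (β := {u : (P : Subgroup G) // u ≠ 1})
      { toFun := fun u => ⟨⟨u.1, u.2.1⟩, fun e => u.2.2 (congrArg Subtype.val e)⟩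
        invFun := fun u => ⟨u.1.1, u.1.2, fun e => u.2 (Subtype.ext e)⟩
        left_inv := fun u => rfl
        right_inv := fun u => rfl }]
    simp only [Nat.card_eq_fintype_card, Fintype.card_subtype_compl, Fintype.card_subtype_eq]
  rw [← hα]
  refine card_dvd_of_free fun u => (Subgroup.eq_bot_iff_forall _).mpr fun g hg => ?_
  have e : ((g : N) : G) * u * ((g : N) : G)⁻¹ = u := congrArg Subtype.val hg
  have h1 := h.mem_of_normalizer_commute u.2.1 u.2.2
    (Sylow.smul_eq_iff_mem_normalizer.mpr (g : N).2) (mul_inv_eq_iff_eq_mul.mp e).symm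
  have h2 : (g : N) ∈ P' ⊓ K := ⟨mem_subgroupOf.mpr h1, g.2⟩
  rw [hK.disjoint.eq_bot, mem_bot] at h2
  exact Subtype.ext h2

theorem card_sylow (h : Hyp G p k a b d) : Nat.card (Sylow p G) = p ^ k + 1 := by
  classical
  obtain ⟨P⟩ := (inferInstance : Nonempty (Sylow p G))
  obtain ⟨c, hc, hcd⟩ := h.card_normalizer P
  have hn : Nat.card (Sylow p G) * (p ^ k * c) = p ^ k * (d * (a * b)) := by
    rw [P.card_eq_index_normalizer, ← hc, mul_comm]
    exact (Subgroup.card_mul_index _).trans h.card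
  have hn' : Nat.card (Sylow p G) * c = d * a * b := by
    refine Nat.eq_of_mul_eq_mul_left (pow_pos h.prime.pos k) ?_
    rw [show p ^ k * (d * a * b) = p ^ k * (d * (a * b)) by ring, ← hn]; ring
  obtain ⟨j, hj⟩ := hcd
  have hqa : p ^ k - 1 = d * a := by have := h.ha; omega
  rw [hqa] at hj
  have hc0 : 0 < c := by
    rcases Nat.eq_zero_or_pos c with rfl | h0
    · have := h.a_pos; have := h.d_pos.1
      simp at hj; omega
    · exact h0
  have hnj : Nat.card (Sylow p G) = j * b :=
    Nat.eq_of_mul_eq_mul_right hc0 (by rw [hn', hj]; ring)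
  -- `P` acts freely on the other Sylow subgroups
  let α := {R : Sylow p G // R ≠ P}
  have hPfix : ∀ g : (P : Subgroup G), (g : G) • P = P := fun g =>
    Sylow.smul_eq_iff_mem_normalizer.mpr (le_normalizer g.2)
  letI : MulAction (P : Subgroup G) α :=
    { smul := fun g R => ⟨(g : G) • (R : Sylow p G), fun e => R.2
        (MulAction.injective (g : G) (e.trans (hPfix g).symm))⟩
      one_smul := fun R => Subtype.ext (one_smul G _)
      mul_smul := fun g g' R => Subtype.ext (mul_smul (g : G) (g' : G) _) }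
  have hdvd : p ^ k ∣ Nat.card α := by
    rw [← h.card_sylow_subgroup P]
    exact card_dvd_of_free fun R => (Subgroup.eq_bot_iff_forall _).mpr fun g hg =>
      Subtype.ext (h.eq_one_of_smul R.2 g.2 (congrArg Subtype.val hg))
  have hα : Nat.card α = j * b - 1 := by
    haveI : Fintype (Sylow p G) := Fintype.ofFinite _
    rw [← hnj]
    simp only [α, Nat.card_eq_fintype_card, Fintype.card_subtype_compl, Fintype.card_subtype_eq]
  have hj0 : 0 < j := by
    rcases Nat.eq_zero_or_pos j with rfl | h0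
    · have := h.a_pos; have := h.d_pos.1
      simp at hj; omega
    · exact h0
  have hjd : j = d := by
    obtain ⟨t, ht⟩ := hα ▸ hdvd
    have hpos : 0 < j * b := Nat.mul_pos hj0 h.b_pos
    have h1 : (p ^ k : ℤ) ∣ (j : ℤ) - d := by
      have e1 : (j : ℤ) * b = (p : ℤ) ^ k * t + 1 := by
        have : j * b = p ^ k * t + 1 := by omega
        exact_mod_cast this
      have e2 : (d : ℤ) * b = (p : ℤ) ^ k + 1 := by exact_mod_cast h.hb
      refine ⟨(t : ℤ) * d - j, ?_⟩
      linear_combination (d : ℤ) * e1 - (j : ℤ) * e2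
    have hjle : j ≤ d * a := Nat.le_of_dvd (Nat.mul_pos h.d_pos.1 h.a_pos) ⟨c, by rw [hj]; ring⟩
    have h2 : ((j : ℤ) - d).natAbs < p ^ k := by
      have := h.d_pos; have := h.ha; have := h.four
      omega
    have h3 := Int.natAbs_dvd_natAbs.mpr h1
    have h4 : ((p : ℤ) ^ k).natAbs = p ^ k := by simp [Int.natAbs_pow]
    rw [h4] at h3
    have h5 := Nat.eq_zero_of_dvd_of_lt h3 h2
    omega
  rw [hnj, hjd, h.hb]

/-- The action on the Sylow subgroups. -/
theorem zData (h : Hyp G p k a b d) (P : Sylow p G) :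
    ∃ Q : Sylow p G, Q ≠ P ∧ ZData G (Sylow p G) ∧ IsKernel (P : Subgroup G) P ∧
      Nat.card (ZData.H2 (G := G) P Q) = a := by
  classical
  have := Fintype.ofFinite (Sylow p G)
  have := Fintype.ofFinite ↥(P : Subgroup G)
  have hn : Nat.card (Sylow p G) = Nat.card ↥(P : Subgroup G) + 1 := by
    rw [h.card_sylow, h.card_sylow_subgroup]
  have : Nontrivial (Sylow p G) := Finite.one_lt_card_iff_nontrivial.mp (by
    rw [h.card_sylow]; have := h.four; omega)
  obtain ⟨Q, hPQ⟩ := exists_ne P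
  have hreg : ∀ u ∈ (P : Subgroup G), ∀ R : Sylow p G, R ≠ P → u • R = R → u = 1 :=
    fun u hu R hR => h.eq_one_of_smul hR hu
  have hfix : ∀ g : G, g • P = P → g • Q = Q → g ≠ 1 → ∀ u ∈ (P : Subgroup G),
      g * u = u * g → u = 1 := fun g hgP hgQ hg u hu hc => by_contra fun hu1 =>
    hg (h.eq_one_of_smul hPQ (h.mem_of_normalizer_commute hu hu1 hgP hc.symm) hgQ)
  have hPfix : ∀ u ∈ (P : Subgroup G), u • P = P := fun u hu =>
    Sylow.smul_eq_iff_mem_normalizer.mpr (le_normalizer hu)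
  have hfaith : ∀ g : G, (∀ R : Sylow p G, g • R = R) → g = 1 := by
    intro g hg
    by_contra hg1
    obtain ⟨v, hv, hv1⟩ : ∃ v ∈ (P : Subgroup G), v ≠ 1 := by
      by_contra hc
      push Not at hc
      have := h.card_sylow_subgroup P
      rw [(Subgroup.eq_bot_iff_forall _).mpr hc, Subgroup.card_bot] at this
      have := h.four; omega
    -- the commutator of `g` and `v`
    have hgN := Sylow.smul_eq_iff_mem_normalizer.mp (hg P)
    have h1 : g * v * g⁻¹ * v⁻¹ ∈ (P : Subgroup G) :=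
      mul_mem ((mem_normalizer_iff.mp hgN v).mp hv) (inv_mem hv)
    have h2 : (g * v * g⁻¹ * v⁻¹) • Q = Q := by
      rw [mul_smul, mul_smul, mul_smul,
        inv_smul_eq_iff.mpr (hg (v⁻¹ • Q)).symm, smul_inv_smul]
      exact hg Q
    have h3 := h.eq_one_of_smul hPQ h1 h2
    exact hv1 (hfix g (hg P) (hg Q) hg1 v hv (mul_inv_eq_iff_eq_mul.mp (mul_inv_eq_one.mp h3)))
  have hcard : Nat.card {R : Sylow p G // R ≠ P} = Nat.card ↥(P : Subgroup G) := by
    rw [Nat.card_eq_fintype_card, Fintype.card_subtype_compl, Fintype.card_subtype_eq,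
      ← Nat.card_eq_fintype_card, hn]
    omega
  have htr : ∀ R S : Sylow p G, R ≠ P → S ≠ P → ∃! u : ↥(P : Subgroup G), (u : G) • R = S := by
    intro R S hR hS
    let f : ↥(P : Subgroup G) → {T : Sylow p G // T ≠ P} := fun u => ⟨(u : G) • R, fun e => hR
      (MulAction.injective (u : G) (e.trans (hPfix u u.2).symm))⟩
    have hf : Function.Injective f := by
      intro u v e
      have h1 : (u : G) • R = (v : G) • R := congrArg Subtype.val e
      refine Subtype.ext (inv_mul_eq_one.mp (hreg _ (mul_mem (inv_mem u.2) v.2) R hR ?_))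
      rw [mul_smul, ← h1, inv_smul_smul]
    have hb : Function.Bijective f := (Nat.bijective_iff_injective_and_card _).mpr ⟨hf, hcard.symm⟩
    obtain ⟨u, hu⟩ := hb.2 ⟨S, hS⟩
    exact ⟨u, congrArg Subtype.val hu,
      fun v hv => hf (Subtype.ext (hv.trans (congrArg Subtype.val hu).symm))⟩
  have htwo : ∀ {A B : Sylow p G}, A ≠ B → ∃ g : G, g • A = P ∧ g • B = Q := by
    intro A B hAB
    obtain ⟨g, hg⟩ := MulAction.exists_smul_eq G A P
    have hB : g • B ≠ P := fun e => hAB (MulAction.injective g (hg.trans e.symm))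
    obtain ⟨u, hu, -⟩ := htr (g • B) Q hB hPQ
    exact ⟨(u : G) * g, by rw [mul_smul, hg, hPfix u u.2], by rw [mul_smul, hu]⟩
  have hz : ZData G (Sylow p G) := by
    refine ⟨hfaith, fun {A B C D} hAB hCD => ?_, ?_⟩
    · obtain ⟨g, hg1, hg2⟩ := htwo hAB
      obtain ⟨l, hl1, hl2⟩ := htwo hCD
      exact ⟨l⁻¹ * g, by rw [mul_smul, hg1, ← hl1, inv_smul_smul],
        by rw [mul_smul, hg2, ← hl2, inv_smul_smul]⟩
    · intro g A B C hAB hBC hAC hA hB hC
      obtain ⟨l, hl1, hl2⟩ := htwo hAB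
      set x := l * g * l⁻¹ with hx
      have hxP : x • P = P := by rw [hx, ← hl1, mul_smul, inv_smul_smul, mul_smul, hA]
      have hxQ : x • Q = Q := by rw [hx, ← hl2, mul_smul, inv_smul_smul, mul_smul, hB]
      have hxC : x • (l • C) = l • C := by rw [hx, mul_smul, inv_smul_smul, mul_smul, hC]
      by_contra hg
      have hx1 : x ≠ 1 := fun e => hg (conj_eq_one_iff.mp e)
      have hCP : l • C ≠ P := fun e => hAC (MulAction.injective l (hl1.trans e.symm))
      obtain ⟨u, hu, -⟩ := htr Q (l • C) hPQ hCP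
      have hxu : x * u * x⁻¹ ∈ (P : Subgroup G) :=
        (mem_normalizer_iff.mp (Sylow.smul_eq_iff_mem_normalizer.mp hxP) _).mp u.2
      have h2 : (x * u * x⁻¹) • Q = l • C := by
        rw [mul_smul, mul_smul, inv_smul_eq_iff.mpr hxQ.symm, hu, hxC]
      have h3 : (x * u * x⁻¹) = (u : G) := congrArg Subtype.val
        ((htr Q (l • C) hPQ hCP).unique (y₁ := ⟨_, hxu⟩) (y₂ := u) h2 hu)
      have h4 := hfix x hxP hxQ hx1 u u.2 (mul_inv_eq_iff_eq_mul.mp h3)
      rw [h4, one_smul] at hu
      exact hBC (MulAction.injective l (hl2.trans hu))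
  refine ⟨Q, hPQ, hz, ⟨fun u hu => hPfix u hu, fun g hg u hu =>
    (mem_normalizer_iff.mp (Sylow.smul_eq_iff_mem_normalizer.mp hg) u).mp hu, htr⟩, ?_⟩
  have h1 := hz.card_group hPQ.symm
  rw [h.card_sylow, h.card, Nat.add_sub_cancel] at h1
  have h2 : p ^ k * (d * (a * b)) =
      (p ^ k + 1) * (p ^ k * Nat.card (ZData.H2 (G := G) P Q)) := h1
  rw [← h.hb] at h2
  refine (Nat.eq_of_mul_eq_mul_left
    (Nat.mul_pos (pow_pos h.prime.pos k) (Nat.mul_pos h.d_pos.1 h.b_pos)) ?_).symm
  calc p ^ k * (d * b) * a = p ^ k * (d * (a * b)) := by ring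
    _ = _ := by rw [h2]; ring

end Cfsg.Agent.OrderSpecPSL.Hyp
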