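import Mathlib.Algebra.BigOperators.GroupWithZero.Action
import Mathlib.Algebra.Group.Action.Basic
import Mathlib.GroupTheory.OrderOfElement
import Mathlib.Algebra.Group.Subgroup.Finite
import Mathlib.GroupTheory.GroupAction.Hom
import Mathlib.Tactic.Group
import Mathlib.Tactic.IntervalCases

/-!
A Frobenius group `⟨x⟩⟨y⟩` acting on an abelian group, `x` without fixed points: the norm of some
conjugate of `y` is non-trivial.
-/

set_option autoImplicit false

namespace Cfsg.Agent.OrderSpecPSL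

theorem pow_card_eq_one_of_norms {V A : Type*} [CommGroup V] [Group A] [Finite A]
    [MulDistribMulAction A V] {x y : A} {p : ℕ} (hp : 0 < p)
    (hnorm : ∀ z ∈ Subgroup.zpowers x, ∀ i : ℕ, y ^ i * z * (y ^ i)⁻¹ ∈ Subgroup.zpowers x)
    (hcomm : ∀ z ∈ Subgroup.zpowers x, z ≠ 1 → ∀ i : ℕ, 0 < i → i < p → z * y ^ i ≠ y ^ i * z)
    (hfix : ∀ v : V, x • v = v → v = 1)
    (hN : ∀ z ∈ Subgroup.zpowers x, ∀ v : V,
      ∏ i ∈ Finset.range p, (z * y * z⁻¹) ^ i • v = 1)
    (v : V) : v ^ Nat.card (Subgroup.zpowers x) = 1 := by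
  classical
  haveI : Fintype (Subgroup.zpowers x) := Fintype.ofFinite _
  -- the norm of `x` vanishes
  have hX : ∀ w : V, ∏ z : Subgroup.zpowers x, (z : A) • w = 1 := by
    intro w
    refine hfix _ ?_
    rw [Finset.smul_prod']
    exact Fintype.prod_equiv (Equiv.mulLeft (⟨x, Subgroup.mem_zpowers x⟩ : Subgroup.zpowers x))
      _ _ (fun z => (mul_smul x (z : A) w).symm)
  have h1 : ∏ z : Subgroup.zpowers x, ∏ i ∈ Finset.range p,
      ((z : A) * y * (z : A)⁻¹) ^ i • v = 1 :=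
    Finset.prod_eq_one fun z _ => hN z z.2 v
  rw [Finset.prod_comm] at h1
  rw [← Finset.mul_prod_erase _ _ (Finset.mem_range.2 hp)] at h1
  have h2 : ∏ i ∈ (Finset.range p).erase 0, ∏ z : Subgroup.zpowers x,
      ((z : A) * y * (z : A)⁻¹) ^ i • v = 1 := by
    refine Finset.prod_eq_one fun i hi => ?_
    obtain ⟨hi0, hip⟩ := Finset.mem_erase.1 hi
    rw [Finset.mem_range] at hip
    -- `z ↦ z * (y^i z⁻¹ y^-i)` permutes `⟨x⟩`
    let f : Subgroup.zpowers x → Subgroup.zpowers x := fun z =>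
      ⟨(z : A) * (y ^ i * (z : A)⁻¹ * (y ^ i)⁻¹),
        mul_mem z.2 (hnorm _ (inv_mem z.2) i)⟩
    have hf : Function.Injective f := by
      intro z w h
      have h' : (z : A) * (y ^ i * (z : A)⁻¹ * (y ^ i)⁻¹) =
          (w : A) * (y ^ i * (w : A)⁻¹ * (y ^ i)⁻¹) := congrArg Subtype.val h
      by_contra hne
      refine hcomm ((w : A)⁻¹ * z) (mul_mem (inv_mem w.2) z.2) (fun e => hne ?_) i
        (Nat.pos_of_ne_zero hi0) hip ?_
      · exact Subtype.ext (inv_mul_eq_one.1 e).symm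
      · calc (w : A)⁻¹ * z * y ^ i
            = (w : A)⁻¹ * ((z : A) * (y ^ i * (z : A)⁻¹ * (y ^ i)⁻¹)) * (y ^ i * z) := by group
          _ = (w : A)⁻¹ * ((w : A) * (y ^ i * (w : A)⁻¹ * (y ^ i)⁻¹)) * (y ^ i * z) := by rw [h']
          _ = y ^ i * ((w : A)⁻¹ * z) := by group
    rw [← hX (y ^ i • v)]
    refine Fintype.prod_equiv (Equiv.ofBijective f (Finite.injective_iff_bijective.1 hf)) _ _
      fun z => ?_
    rw [conj_pow, smul_smul]
    congr 1
    simp only [Equiv.ofBijective_apply, f]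
    group
  rw [h2, mul_one] at h1
  simpa [Finset.prod_const, Finset.card_univ, ← Nat.card_eq_fintype_card] using h1

end Cfsg.Agent.OrderSpecPSL
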