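import Cfsg.Agent.OrderSpecPSL.Centralizer
import Cfsg.Agent.OrderSpecPSL.Norm
import Mathlib.GroupTheory.Nilpotent
import Mathlib.GroupTheory.Solvable
import Mathlib.GroupTheory.Subgroup.Centralizer

/-!
The Sylow `p`-subgroups of a group with the order and element orders of `PSL(2, p^k)` are TI.
-/

set_option autoImplicit false

namespace Cfsg.Agent.OrderSpecPSL

open Subgroup
open scoped commutatorElement

/-- A non-trivial solvable finite group has a non-trivial normal subgroup of prime exponent which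
is commutative. -/
theorem exists_normal_prime_exponent {X : Type*} [Group X] [Finite X] [Nontrivial X]
    (hX : Group.IsSolvable X) :
    ∃ (r : ℕ) (W : Subgroup X), r.Prime ∧ W.Normal ∧ W ≠ ⊥ ∧ ∀ w ∈ W, w ^ r = 1 := by
  classical
  obtain ⟨n, hn⟩ := hX.solvable
  have hex : ∃ n, derivedSeries X n = ⊥ := ⟨n, hn⟩
  have h0 : Nat.find hex ≠ 0 := fun e => by
    have h1 := Nat.find_spec hex
    rw [e, derivedSeries_zero] at h1
    exact top_ne_bot h1
  obtain ⟨i, hi⟩ := Nat.exists_eq_succ_of_ne_zero h0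
  set A := derivedSeries X i with hA
  have hA0 : A ≠ ⊥ := Nat.find_min hex (by omega)
  haveI : A.Normal := inferInstanceAs (derivedSeries X i).Normal
  have hAc : ∀ u ∈ A, ∀ v ∈ A, Commute u v := by
    intro u hu v hv
    have h1 : derivedSeries X (i + 1) = ⊥ := by
      have := Nat.find_spec hex; rwa [hi] at this
    rw [derivedSeries_succ, ← hA] at h1
    have h2 : ⁅u, v⁆ ∈ (⊥ : Subgroup X) := h1 ▸ commutator_mem_commutator hu hv
    exact commutatorElement_eq_one_iff_mul_comm.mp (mem_bot.mp h2)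
  obtain ⟨r, hr, hrA⟩ := Nat.exists_prime_and_dvd (n := Nat.card A)
    (fun e => hA0 (Subgroup.card_eq_one.mp e))
  haveI : Fact r.Prime := ⟨hr⟩
  obtain ⟨w, hw⟩ := exists_prime_orderOf_dvd_card' r hrA
  let W : Subgroup X :=
    { carrier := {u | u ∈ A ∧ u ^ r = 1}
      one_mem' := ⟨one_mem _, one_pow r⟩
      mul_mem' := fun {u v} hu hv => ⟨mul_mem hu.1 hv.1, by
        rw [(hAc u hu.1 v hv.1).mul_pow, hu.2, hv.2, one_mul]⟩
      inv_mem' := fun {u} hu => ⟨inv_mem hu.1, by rw [inv_pow, hu.2, inv_one]⟩ }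
  refine ⟨r, W, hr, ⟨fun u hu g => ⟨Subgroup.Normal.conj_mem inferInstance u hu.1 g, ?_⟩⟩, ?_,
    fun u hu => hu.2⟩
  · rw [conj_pow, hu.2]; simp
  · intro e
    have : (w : X) ∈ W := ⟨w.2, by rw [← hw, ← Subgroup.coe_pow, pow_orderOf_eq_one]; rfl⟩
    rw [e, mem_bot] at this
    have : w = 1 := Subtype.ext this
    rw [this, orderOf_one] at hw
    exact hr.ne_one hw.symm

variable {G : Type*} [Group G]

/-- A normal subgroup of exponent `r` over a `p`-subgroup: a cyclic complement. -/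
theorem mul_pow_eq_prod {V : Subgroup G} (hV : IsMulCommutative V) {y : G}
    (hy : y ∈ normalizer (V : Set G)) (v : V) (n : ℕ) :
    letI : CommGroup V := { (inferInstance : Group V) with mul_comm := hV.is_comm.comm }
    ((v : G) * y) ^ n = ((∏ i ∈ Finset.range n,
      normalizerMonoidHom V (⟨y, hy⟩ ^ i) v : V) : G) * y ^ n := by
  letI : CommGroup V := { (inferInstance : Group V) with mul_comm := hV.is_comm.comm }
  show _ = ((∏ i ∈ Finset.range n, normalizerMonoidHom V (⟨y, hy⟩ ^ i) v : V) : G) * y ^ n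
  induction n with
  | zero => simp
  | succ n ih =>
    have h1 : ((normalizerMonoidHom V (⟨y, hy⟩ ^ n) v : V) : G) = y ^ n * v * (y ^ n)⁻¹ := rfl
    rw [Finset.prod_range_succ, Subgroup.coe_mul, h1, pow_succ, ih, pow_succ]
    group

variable [Finite G] {p k a b d : ℕ}

namespace Hyp

theorem ti (h : Hyp G p k a b d) [Fact p.Prime] (P Q : Sylow p G) (hPQ : P ≠ Q) :
    (P : Subgroup G) ⊓ Q = ⊥ := by
  classical
  by_contra hne0
  let f : Sylow p G × Sylow p G → ℕ := fun z =>
    if z.1 = z.2 then 0 else Nat.card ((z.1 : Subgroup G) ⊓ z.2 : Subgroup G)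
  obtain ⟨⟨P₀, Q₀⟩, hmax⟩ := Finite.exists_max f
  have hbig : 1 < f (P, Q) := by
    simp only [f, if_neg hPQ]
    exact (one_lt_card_iff_ne_bot _).mpr hne0
  have hne : P₀ ≠ Q₀ := fun e => by
    have h1 := hmax (P, Q)
    simp only [f, e, if_true] at h1 hbig
    omega
  set D : Subgroup G := (P₀ : Subgroup G) ⊓ Q₀ with hD
  have hDcard : 1 < Nat.card D := by
    have h1 := hmax (P, Q)
    simp only [f, if_neg hne, hD] at h1 hbig ⊢
    omega
  have hDmax : ∀ R R' : Sylow p G, R ≠ R' → ¬ D < (R : Subgroup G) ⊓ R' := by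
    intro R R' hR hlt
    have h1 := hmax (R, R')
    simp only [f, if_neg hne, if_neg hR, ← hD] at h1
    exact hlt.ne (Subgroup.eq_of_le_of_card_ge hlt.le h1)
  set M := normalizer (D : Set G) with hM
  have hDM : D ≤ M := le_normalizer
  have hDp : IsPGroup p D := P₀.2.to_le inf_le_left
  have hDP : ∀ R : Sylow p G, D ≤ (R : Subgroup G) → ∀ R' : Sylow p G, R ≠ R' →
      D ≤ (R' : Subgroup G) → D < (R : Subgroup G) ⊓ M := by
    intro R hR R' hRR' hR'
    have hlt : D < (R : Subgroup G) := by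
      refine lt_of_le_of_ne hR fun e => hRR' ?_
      refine Sylow.ext (Subgroup.eq_of_le_of_card_ge (e ▸ hR') ?_)
      rw [h.card_sylow_subgroup, h.card_sylow_subgroup]
    haveI := R.2.isNilpotent
    have h1 := Group.normalizerCondition_of_isNilpotent (G := (R : Subgroup G)) (D.subgroupOf R)
      (lt_top_iff_ne_top.mpr fun e => hlt.not_ge (subgroupOf_eq_top.mp e))
    obtain ⟨z, hz, hzD⟩ := SetLike.exists_of_lt h1
    refine lt_of_le_of_ne (le_inf hR hDM) fun e => hzD ?_
    have : (z : G) ∈ (R : Subgroup G) ⊓ M := by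
      refine mem_inf.mpr ⟨z.2, ?_⟩
      rw [hM, mem_normalizer_iff]
      intro u
      rw [mem_normalizer_iff] at hz
      constructor
      · intro hu
        exact (hz ⟨u, hR hu⟩).mp hu
      · intro hu
        have h2 : (z : G) * u * (z : G)⁻¹ ∈ (R : Subgroup G) := hR hu
        have hu' : u ∈ (R : Subgroup G) := by
          have := mul_mem (mul_mem (inv_mem z.2) h2) z.2
          rwa [show (z : G)⁻¹ * ((z : G) * u * (z : G)⁻¹) * z = u by group] at this
        exact (hz ⟨u, hu'⟩).mpr hu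
    rw [← e] at this
    exact this
  have hP0 := hDP P₀ inf_le_left Q₀ hne inf_le_right
  have hQ0 := hDP Q₀ inf_le_right P₀ hne.symm inf_le_left
  -- normal `p`-subgroups of `M` lie in `D`
  have hOp : ∀ U : Subgroup G, U ≤ M → IsPGroup p U → M ≤ normalizer (U : Set G) → U ≤ D := by
    intro U hUM hUp hMU
    have key : ∀ R : Sylow p G, D < (R : Subgroup G) ⊓ M → U ≤ (R : Subgroup G) := by
      intro R hR
      have h1 : IsPGroup p (((R : Subgroup G) ⊓ M) ⊔ U : Subgroup G) :=
        (R.2.to_le inf_le_left).to_sup_of_normal_right' hUp (inf_le_right.trans hMU)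
      obtain ⟨R', hR'⟩ := h1.exists_le_sylow
      by_cases e : R = R'
      · exact e ▸ le_sup_right.trans hR'
      · exact absurd (hR.trans_le (le_inf inf_le_left (le_sup_left.trans hR'))) (hDmax R R' e)
    exact le_inf (key P₀ hP0) (key Q₀ hQ0)
  -- some element of `D`
  obtain ⟨x₀, hx₀D, hx₀⟩ : ∃ x ∈ D, x ≠ (1 : G) := by
    by_contra hc
    push Not at hc
    rw [(Subgroup.eq_bot_iff_forall D).mpr hc, Subgroup.card_bot] at hDcard
    omega
  have hexp : ∀ u ∈ D, u ^ p = 1 := fun u hu => h.pow_eq_one_of_pgroup hDp hu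
  rcases h.hd with ⟨-, hp2⟩ | ⟨-, hp2⟩
  · -- `p = 2`: the Sylow subgroups are abelian
    subst hp2
    have hab : ∀ R : Sylow 2 G, ∀ u ∈ (R : Subgroup G), ∀ v ∈ (R : Subgroup G), Commute u v := by
      intro R u hu v hv
      have e1 := h.pow_eq_one_of_pgroup R.2 hu
      have e2 := h.pow_eq_one_of_pgroup R.2 hv
      have e3 := h.pow_eq_one_of_pgroup R.2 (mul_mem hu hv)
      rw [pow_two] at e1 e2 e3
      calc u * v = (u * v)⁻¹ := eq_inv_of_mul_eq_one_left e3
        _ = v * u := by rw [mul_inv_rev, inv_eq_of_mul_eq_one_right e1, inv_eq_of_mul_eq_one_right e2]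
    let C := centralizer ({x₀} : Set G)
    have hC : IsPGroup 2 C := fun y => ⟨1, Subtype.ext (by
      simpa using h.pow_eq_one_of_commute hx₀ (hexp _ hx₀D)
        ((mem_centralizer_singleton_iff.mp y.2).symm : Commute x₀ y))⟩
    obtain ⟨R, hR⟩ := hC.exists_le_sylow
    have key : ∀ S : Sylow 2 G, x₀ ∈ (S : Subgroup G) → R = S := fun S hS =>
      (Sylow.ext (Subgroup.eq_of_le_of_card_ge
        (fun u hu => hR (mem_centralizer_singleton_iff.mpr (hab S u hu x₀ hS).eq))
        (by rw [h.card_sylow_subgroup, h.card_sylow_subgroup]))).symm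
    exact hne ((key P₀ (inf_le_left (a := (P₀ : Subgroup G)) hx₀D)).symm.trans (key Q₀ hx₀D.2))
  -- `p` odd
  have hcent : ∀ z ∈ M, (∀ u ∈ D, Commute u z) → z ∈ D := by
    intro z hz hzc
    refine hOp (M ⊓ centralizer (D : Set G)) inf_le_left (fun y => ⟨1, Subtype.ext ?_⟩) ?_
      ⟨hz, mem_centralizer_iff.mpr hzc⟩
    · simpa using h.pow_eq_one_of_commute hx₀ (hexp _ hx₀D)
        (mem_centralizer_iff.mp y.2.2 x₀ hx₀D)
    · intro m hm
      rw [mem_normalizer_iff]
      have key : ∀ m ∈ M, ∀ u ∈ M ⊓ centralizer (D : Set G),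
          m * u * m⁻¹ ∈ M ⊓ centralizer (D : Set G) := by
        rintro m hm u ⟨hu, huc⟩
        refine mem_inf.mpr ⟨mul_mem (mul_mem hm hu) (inv_mem hm), mem_centralizer_iff.mpr fun v hv => ?_⟩
        have hv' : m⁻¹ * v * m ∈ D := (mem_normalizer_iff''.mp hm v).mp hv
        have h2 := mem_centralizer_iff.mp huc _ hv'
        calc v * (m * u * m⁻¹) = m * (m⁻¹ * v * m * u) * m⁻¹ := by group
          _ = m * (u * (m⁻¹ * v * m)) * m⁻¹ := by rw [h2]
          _ = m * u * m⁻¹ * v := by group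
      intro u
      refine ⟨key m hm u, fun hu => ?_⟩
      have := key m⁻¹ (inv_mem hm) _ hu
      simpa [mul_assoc] using this
  obtain ⟨y₀, hy₀, hy₀D⟩ := SetLike.exists_of_lt hP0
  -- `M` has odd order
  have hodd : Odd (Nat.card M) := by
    rw [← Nat.not_even_iff_odd, even_iff_two_dvd]
    intro h2
    haveI : Fact (Nat.Prime 2) := ⟨Nat.prime_two⟩
    obtain ⟨t, ht⟩ := exists_prime_orderOf_dvd_card' 2 h2
    have hto : orderOf (t : G) = 2 := by rw [Subgroup.orderOf_coe, ht]
    have htt : (t : G) * t = 1 := by rw [← pow_two, ← hto, pow_orderOf_eq_one]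
    have hnc : ∀ u : G, u ^ p = 1 → Commute u (t : G) → u = 1 := fun u hu hc =>
      h.eq_one_of_commute hu (fun e => hp2 (((Nat.dvd_prime h.prime).mp
        (hto ▸ orderOf_dvd_of_pow_eq_one e)).resolve_left (by norm_num)).symm) hc
    have hti : (t : G)⁻¹ = t := inv_eq_of_mul_eq_one_right htt
    have hconjD : ∀ u ∈ D, (t : G) * u * t ∈ D := fun u hu => by
      have := (mem_normalizer_iff.mp t.2 u).mp hu
      rwa [hti] at this
    -- `t` inverts `D`
    have hinv : ∀ u ∈ D, (t : G) * u * t = u⁻¹ := by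
      let φ : D → D := fun u => ⟨(u : G)⁻¹ * ((t : G) * u * t), mul_mem (inv_mem u.2) (hconjD u u.2)⟩
      have hφ : Function.Injective φ := by
        intro u v huv
        have e : (u : G)⁻¹ * ((t : G) * u * t) = (v : G)⁻¹ * ((t : G) * v * t) :=
          congrArg Subtype.val huv
        have h1 : Commute ((v : G) * (u : G)⁻¹) (t : G) := by
          show _ = _
          calc (v : G) * (u : G)⁻¹ * t
              = (v : G) * ((u : G)⁻¹ * ((t : G) * u * t)) * ((t : G)⁻¹ * (u : G)⁻¹) := by group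
            _ = (v : G) * ((v : G)⁻¹ * ((t : G) * v * t)) * ((t : G)⁻¹ * (u : G)⁻¹) := by rw [e]
            _ = (t : G) * ((v : G) * (u : G)⁻¹) := by group
        exact Subtype.ext (mul_inv_eq_one.mp
          (hnc _ (hexp _ (mul_mem v.2 (inv_mem u.2))) h1)).symm
      intro u hu
      obtain ⟨w, hw⟩ := (Finite.injective_iff_bijective.mp hφ).2 ⟨u, hu⟩
      have hw' : (w : G)⁻¹ * ((t : G) * w * t) = u := congrArg Subtype.val hw
      rw [← hw']
      calc (t : G) * ((w : G)⁻¹ * ((t : G) * w * t)) * t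
          = (t : G) * (w : G)⁻¹ * (t : G) * (w : G) * ((t : G) * t) := by group
        _ = (t : G) * (w : G)⁻¹ * (t : G) * (w : G) := by rw [htt, mul_one]
        _ = ((w : G)⁻¹ * ((t : G)⁻¹ * (w : G) * (t : G)⁻¹))⁻¹ := by group
        _ = ((w : G)⁻¹ * ((t : G) * w * t))⁻¹ := by rw [hti]
    have hy₀p : y₀ ^ p = 1 := h.pow_eq_one_of_pgroup P₀.2 hy₀.1
    have hy₀M := hy₀.2
    -- `t` and its conjugate agree modulo `D`
    set u := y₀ * t * y₀⁻¹ with hu
    have huu : u * u = 1 := by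
      rw [hu, show y₀ * t * y₀⁻¹ * (y₀ * t * y₀⁻¹) = y₀ * (t * t) * y₀⁻¹ by group, htt]; group
    have huinv : ∀ v ∈ D, u * v * u = v⁻¹ := by
      intro v hv
      have hv' : y₀⁻¹ * v * y₀ ∈ D := (mem_normalizer_iff''.mp hy₀M v).mp hv
      rw [hu, show y₀ * t * y₀⁻¹ * v * (y₀ * t * y₀⁻¹) =
        y₀ * (t * (y₀⁻¹ * v * y₀) * t) * y₀⁻¹ by group, hinv _ hv']
      group
    have hz : (t : G) * u ∈ D := by
      refine hcent _ (mul_mem t.2 (mul_mem (mul_mem hy₀M t.2) (inv_mem hy₀M))) fun v hv => ?_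
      show v * ((t : G) * u) = (t : G) * u * v
      calc v * ((t : G) * u) = v * ((t : G) * (v * v⁻¹) * u) := by group
        _ = v * ((t : G) * v * ((t : G) * t) * (u * v * u) * u) := by rw [huinv v hv, htt]; group
        _ = v * (((t : G) * v * t) * ((t : G) * u) * v * (u * u)) := by group
        _ = (t : G) * u * v := by rw [hinv v hv, huu]; group
    -- a square root
    set z := (t : G) * u with hz'
    have hw : y₀⁻¹ * z * y₀ ∈ D := (mem_normalizer_iff''.mp hy₀M z).mp hz
    obtain ⟨c, hc⟩ := h.prime.odd_of_ne_two hp2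
    set e := (y₀⁻¹ * z * y₀) ^ (c + 1) with he
    have hee : e * e = y₀⁻¹ * z * y₀ := by
      rw [he, ← pow_add, show c + 1 + (c + 1) = p + 1 by omega, pow_succ, hexp _ hw, one_mul]
    have hcomm : Commute (y₀ * e) (t : G) := by
      have h1 : e * t = t * e⁻¹ := by
        rw [← hinv e (pow_mem hw _), ← mul_assoc, ← mul_assoc, htt, one_mul]
      show y₀ * e * t = t * (y₀ * e)
      calc y₀ * e * t = y₀ * (e * t) := by group
        _ = y₀ * t * e⁻¹ := by rw [h1]; group
        _ = u * y₀ * e⁻¹ := by rw [hu]; group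
        _ = (t : G)⁻¹ * z * y₀ * e⁻¹ := by rw [hz']; group
        _ = (t : G) * (y₀ * (y₀⁻¹ * z * y₀)) * e⁻¹ := by rw [hti]; group
        _ = (t : G) * (y₀ * e) := by rw [← hee]; group
    have hmem : y₀ * e ∈ (P₀ : Subgroup G) := mul_mem hy₀.1 (pow_mem hw _).1
    have h1 := hnc _ (h.pow_eq_one_of_pgroup P₀.2 hmem) hcomm
    exact hy₀D (by rw [eq_inv_of_mul_eq_one_left h1]; exact inv_mem (pow_mem hw _))
  -- `M` is solvable; a normal subgroup above `D`
  haveI hMs := h.isSolvable_of_odd M hodd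
  set D' := D.subgroupOf M with hD'
  haveI : D'.Normal := normal_in_normalizer
  haveI : Nontrivial (M ⧸ D') := by
    refine ⟨⟨QuotientGroup.mk (⟨y₀, hy₀.2⟩ : M), 1, fun e => hy₀D ?_⟩⟩
    exact (QuotientGroup.eq_one_iff (N := D') _).mp e
  obtain ⟨r, W, hr, hWn, hW, hWr⟩ := exists_normal_prime_exponent (X := M ⧸ D')
    (Group.isSolvable_of_surjective (QuotientGroup.mk'_surjective D'))
  set L := W.comap (QuotientGroup.mk' D') with hL
  haveI : L.Normal := hWn.comap _
  have hLr : ∀ u ∈ L, ((u : M) : G) ^ r ∈ D := fun u hu => by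
    have h1 := hWr _ (mem_comap.mp hu)
    rw [← map_pow] at h1
    exact (QuotientGroup.eq_one_iff (N := D') _).mp h1
  have hLD : ¬ L ≤ D' := fun hle => hW ((Subgroup.eq_bot_iff_forall W).mpr fun w hw => by
    obtain ⟨u, rfl⟩ := QuotientGroup.mk'_surjective D' w
    exact (QuotientGroup.eq_one_iff u).mpr (hle hw))
  have hrp : r ≠ p := by
    intro e
    subst e
    refine hLD fun u hu => hOp (L.map M.subtype) ?_ ?_ ?_ (mem_map_of_mem M.subtype hu)
    · exact map_subtype_le L
    · refine IsPGroup.map (fun v => ?_) M.subtype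
      obtain ⟨i, hi⟩ := hDp ⟨_, hLr v v.2⟩
      refine ⟨i + 1, Subtype.ext (Subtype.ext ?_)⟩
      have hi' : (((v : M) : G) ^ r) ^ r ^ i = 1 := congrArg Subtype.val hi
      rw [← pow_mul, ← pow_succ'] at hi'
      simpa using hi'
    · intro m hm
      rw [mem_normalizer_iff]
      intro v
      constructor
      · rintro ⟨w, hw, rfl⟩
        exact ⟨⟨m, hm⟩ * w * ⟨m, hm⟩⁻¹, ‹L.Normal›.conj_mem w hw _, rfl⟩
      · rintro ⟨w, hw, hwv⟩
        refine ⟨⟨m, hm⟩⁻¹ * w * ⟨m, hm⟩, ?_, ?_⟩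
        · simpa using ‹L.Normal›.conj_mem w hw (⟨m, hm⟩⁻¹ : M)
        · simp only [coe_subtype, Subgroup.coe_mul, Subgroup.coe_inv] at hwv ⊢
          rw [hwv]; group
  haveI : Fact r.Prime := ⟨hr⟩
  have hnD : ∀ u : G, u ∈ D → u ^ r = 1 → u = 1 := fun u hu hur =>
    orderOf_eq_one_iff.mp (Nat.Coprime.eq_one_of_dvd
      (((Nat.coprime_primes hr h.prime).mpr hrp).coprime_dvd_left (orderOf_dvd_of_pow_eq_one hur))
      (orderOf_dvd_of_pow_eq_one (hexp u hu)))
  -- `r` divides the order of `L`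
  obtain ⟨l₀, hl₀, hl₀D⟩ : ∃ l ∈ L, l ∉ D' := by
    by_contra hc
    push Not at hc
    exact hLD hc
  have hrL : r ∣ Nat.card L := by
    refine dvd_trans ?_ (orderOf_dvd_natCard (⟨l₀, hl₀⟩ : L))
    by_contra hnd
    rw [Subgroup.orderOf_mk] at hnd
    have hco : (orderOf l₀).Coprime r := (hr.coprime_iff_not_dvd.mpr hnd).symm
    obtain ⟨j, hj⟩ := exists_pow_eq_self_of_coprime (x := l₀) (n := r) hco.symm
    refine hl₀D ?_
    rw [← hj]
    exact pow_mem (mem_subgroupOf.mpr (by simpa using hLr l₀ hl₀)) _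
  obtain ⟨R⟩ := (inferInstance : Nonempty (Sylow r L))
  have hRr : ∀ u ∈ (R : Subgroup L), u ^ r = 1 := by
    intro u hu
    obtain ⟨i, hi⟩ := R.2 ⟨u, hu⟩
    have hi' : u ^ r ^ i = 1 := congrArg Subtype.val hi
    refine Subtype.ext (Subtype.ext ?_)
    obtain ⟨j, -, hj⟩ := (Nat.dvd_prime_pow hr).mp (orderOf_dvd_of_pow_eq_one hi')
    have hpd : ((((u : L) : M) : G) ^ r) ^ p = 1 := hexp _ (hLr _ (u : L).2)
    rw [← pow_mul] at hpd
    have h2 : orderOf u ∣ r * p := orderOf_dvd_of_pow_eq_one (Subtype.ext (Subtype.ext (by simpa using hpd)))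
    have h3 : orderOf u ∣ r := (Nat.Coprime.pow_left j ((Nat.coprime_primes hr h.prime).mpr hrp))
      |>.coprime_dvd_left (dvd_of_eq hj) |>.dvd_of_dvd_mul_right h2
    have := orderOf_dvd_iff_pow_eq_one.mp h3
    simpa using congrArg (fun w : L => (((w : M)) : G)) this
  -- `R` has order `r`
  obtain ⟨x₁, hx₁R, hx₁1⟩ : ∃ x ∈ (R : Subgroup L), x ≠ 1 := by
    by_contra hc
    push Not at hc
    have h1 := R.pow_dvd_card_of_pow_dvd_card (n := 1) (by simpa using hrL)
    rw [(Subgroup.eq_bot_iff_forall _).mpr hc, Subgroup.card_bot, pow_one] at h1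
    exact hr.ne_one (Nat.dvd_one.mp h1)
  set x : G := ((x₁ : M) : G) with hxdef
  have hxr : x ^ r = 1 := by
    simpa using congrArg (fun w : L => ((w : M) : G)) (hRr x₁ hx₁R)
  have hx1 : x ≠ 1 := fun e => hx₁1 (Subtype.ext (Subtype.ext e))
  have hxo : orderOf x = r := orderOf_eq_prime hxr hx1
  have hr2 : r ≠ 2 := by
    intro e
    have h1 := M.orderOf_dvd_natCard (x₁ : M).2
    rw [← hxdef, hxo, e] at h1
    exact Nat.not_even_iff_odd.mpr hodd (even_iff_two_dvd.mpr h1)
  obtain ⟨β, hβ⟩ := h.exists_cyclic_of_odd_prime hr hr2 hrp hxo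
  have hRx : ∀ u ∈ (R : Subgroup L), ((u : M) : G) ∈ zpowers x := by
    intro u hu
    haveI := R.2.isNilpotent
    by_contra hnu
    have hoddR : Odd (orderOf ((u : M) : G)) :=
      (hr.odd_of_ne_two hr2).of_dvd_nat (orderOf_dvd_of_pow_eq_one
        (by simpa using congrArg (fun w : L => ((w : M) : G)) (hRr u hu)))
    -- the centre of `R`
    obtain ⟨w, hwc, hw1⟩ : ∃ w ∈ center (R : Subgroup L), w ≠ 1 := by
      by_contra hc
      push Not at hc
      haveI : Nontrivial (R : Subgroup L) :=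
        ⟨⟨⟨x₁, hx₁R⟩, 1, fun e => hx₁1 (congrArg Subtype.val e)⟩⟩
      haveI := R.2.center_nontrivial
      obtain ⟨w, hw⟩ := exists_ne (1 : center (R : Subgroup L))
      exact hw (Subtype.ext (hc w w.2))
    set w' : G := (((w : L) : M) : G)
    have hw'r : w' ^ r = 1 := by
      simpa using congrArg (fun z : L => ((z : M) : G)) (hRr w w.2)
    have hw'1 : w' ≠ 1 := fun e => hw1 (Subtype.ext (Subtype.ext (Subtype.ext e)))
    obtain ⟨β', hβ'⟩ := h.exists_cyclic_of_odd_prime hr hr2 hrp (orderOf_eq_prime hw'r hw'1)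
    have hin : ∀ z ∈ (R : Subgroup L), ((z : M) : G) ∈ zpowers β' := by
      intro z hz
      refine hβ' _ ?_ ((hr.odd_of_ne_two hr2).of_dvd_nat (orderOf_dvd_of_pow_eq_one
        (by simpa using congrArg (fun w : L => ((w : M) : G)) (hRr z hz))))
      exact congrArg (fun q : (R : Subgroup L) => (((q : L) : M) : G))
        (mem_center_iff.mp hwc ⟨z, hz⟩).symm
    refine hnu ?_
    have hsub : zpowers x ≤ zpowers β' := zpowers_le.mpr (hin x₁ hx₁R)
    have huu := hin u hu
    have hur : ((u : M) : G) ^ r = 1 := by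
      simpa using congrArg (fun w : L => ((w : M) : G)) (hRr u hu)
    haveI : Fintype (zpowers β') := Fintype.ofFinite _
    classical
    have hle := IsCyclic.card_pow_eq_one_le (α := zpowers β') hr.pos
    let F : zpowers x → {z : zpowers β' // z ^ r = 1} := fun z =>
      ⟨⟨z, hsub z.2⟩, Subtype.ext (by
        obtain ⟨i, hi⟩ := mem_zpowers_iff.mp z.2
        show (z : G) ^ r = 1
        rw [← hi, ← zpow_natCast, ← zpow_mul, mul_comm, zpow_mul, zpow_natCast, hxr, one_zpow])⟩
    have hF : Function.Bijective F := by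
      refine (Nat.bijective_iff_injective_and_card F).mpr ⟨fun z z' e => Subtype.ext
        (congrArg (fun q : {z : zpowers β' // z ^ r = 1} => ((q : zpowers β') : G)) e), ?_⟩
      refine le_antisymm (Nat.card_le_card_of_injective F fun z z' e => Subtype.ext
        (congrArg (fun q : {z : zpowers β' // z ^ r = 1} => ((q : zpowers β') : G)) e)) ?_
      rw [Nat.card_zpowers, hxo, Nat.card_eq_fintype_card, Fintype.card_subtype]
      exact hle
    obtain ⟨z, hz⟩ := hF.2 ⟨⟨_, huu⟩, Subtype.ext hur⟩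
    have : (z : G) = ((u : M) : G) :=
      congrArg (fun q : {z : zpowers β' // z ^ r = 1} => ((q : zpowers β') : G)) hz
    exact this ▸ z.2
  -- an element of order `p` normalising `R`
  let N := normalizer (((R : Subgroup L).map L.subtype : Subgroup M) : Set M)
  have hfrat : N ⊔ L = ⊤ := Sylow.normalizer_sup_eq_top R
  obtain ⟨y, hyN, hyo⟩ : ∃ y : M, y ∈ N ∧ orderOf y = p := by
    by_contra hc
    push Not at hc
    have hN : ¬ p ∣ Nat.card N := fun hd => by
      obtain ⟨y, hy⟩ := exists_prime_orderOf_dvd_card' p hd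
      exact hc y y.2 (by rw [Subgroup.orderOf_coe, hy])
    -- then every `p`-element of `M` lies in `L`
    haveI := ‹L.Normal›
    have hquot : ¬ p ∣ Nat.card (M ⧸ L) := by
      intro hd
      refine hN (hd.trans ?_)
      refine Subgroup.card_dvd_of_surjective ((QuotientGroup.mk' L).comp N.subtype) fun q => ?_
      obtain ⟨m, rfl⟩ := QuotientGroup.mk'_surjective L q
      have hm : m ∈ N ⊔ L := by rw [hfrat]; exact mem_top m
      obtain ⟨n, hn, l, hl, rfl⟩ := Subgroup.mem_sup_of_normal_right.mp hm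
      refine ⟨⟨n, hn⟩, ?_⟩
      show QuotientGroup.mk' L n = _
      have hl1 : QuotientGroup.mk' L l = 1 := (QuotientGroup.eq_one_iff (N := L) l).mpr hl
      rw [map_mul, hl1, mul_one]
    have hy₀L : (⟨y₀, hy₀.2⟩ : M) ∈ L := by
      rw [← QuotientGroup.eq_one_iff (N := L)]
      refine orderOf_eq_one_iff.mp (Nat.Coprime.eq_one_of_dvd
        ((h.prime.coprime_iff_not_dvd.mpr hquot).coprime_dvd_left ?_) (orderOf_dvd_natCard _))
      refine orderOf_dvd_of_pow_eq_one ?_
      rw [← QuotientGroup.mk_pow]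
      exact (QuotientGroup.eq_one_iff _).mpr (by
        rw [show (⟨y₀, hy₀.2⟩ : M) ^ p = 1 from Subtype.ext
          (by simpa using h.pow_eq_one_of_pgroup P₀.2 hy₀.1)]
        exact one_mem _)
    have h1 := hLr _ hy₀L
    obtain ⟨j, hj⟩ := exists_pow_eq_self_of_coprime (x := y₀) (n := r)
      (((Nat.coprime_primes hr h.prime).mpr hrp).coprime_dvd_right
        (orderOf_dvd_of_pow_eq_one (h.pow_eq_one_of_pgroup P₀.2 hy₀.1)))
    exact hy₀D (hj ▸ pow_mem h1 j)
  have hyo' : orderOf (y : G) = p := by rw [Subgroup.orderOf_coe, hyo]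
  have hyp : (y : G) ^ p = 1 := by rw [← hyo', pow_orderOf_eq_one]
  have hy1 : (y : G) ≠ 1 := fun e => by rw [e, orderOf_one] at hyo'; exact h.prime.ne_one hyo'.symm
  have hyx : (y : G) * x * (y : G)⁻¹ ∈ zpowers x := by
    obtain ⟨u, hu, e⟩ := (mem_normalizer_iff.mp hyN (x₁ : M)).mp (mem_map_of_mem _ hx₁R)
    have := hRx u hu
    rwa [show ((u : M) : G) = (y : G) * x * (y : G)⁻¹ from congrArg Subtype.val e] at this
  have hyxz : ∀ i : ℕ, ∀ z ∈ zpowers x, (y : G) ^ i * z * ((y : G) ^ i)⁻¹ ∈ zpowers x := by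
    intro i
    induction i with
    | zero => intro z hz; simpa [pow_zero, inv_one] using hz
    | succ i ih =>
      intro z hz
      rw [pow_succ', show (y : G) * (y : G) ^ i * z * ((y : G) * (y : G) ^ i)⁻¹ =
        (y : G) * ((y : G) ^ i * z * ((y : G) ^ i)⁻¹) * (y : G)⁻¹ by group]
      obtain ⟨j, hj⟩ := mem_zpowers_iff.mp (ih z hz)
      rw [← hj, ← conj_zpow]
      exact zpow_mem hyx j
  -- the centre of `D`
  set V := (center D).map D.subtype with hV
  have hVD : V ≤ D := map_subtype_le _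
  haveI hVc : IsMulCommutative V := ⟨⟨by
    rintro ⟨u, u', hu, rfl⟩ ⟨v, v', hv, rfl⟩
    refine Subtype.ext ?_
    show (u' : G) * (v' : G) = (v' : G) * (u' : G)
    exact congrArg Subtype.val (mem_center_iff.mp hv u')⟩⟩
  have hV1 : ∃ v ∈ V, v ≠ (1 : G) := by
    haveI : Nontrivial D := ⟨⟨⟨x₀, hx₀D⟩, 1, fun e => hx₀ (congrArg Subtype.val e)⟩⟩
    haveI := hDp.center_nontrivial
    obtain ⟨v, hv⟩ := exists_ne (1 : center D)
    exact ⟨_, mem_map_of_mem D.subtype v.2, fun e => hv (Subtype.ext (Subtype.ext e))⟩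
  have hMV : M ≤ normalizer (V : Set G) := by
    have key : ∀ m ∈ M, ∀ v ∈ V, m * v * m⁻¹ ∈ V := by
      rintro m hm _ ⟨v, hv, rfl⟩
      refine ⟨⟨m * v * m⁻¹, (mem_normalizer_iff.mp hm _).mp v.2⟩, mem_center_iff.mpr fun w => ?_, rfl⟩
      have hw : m⁻¹ * w * m ∈ D := (mem_normalizer_iff''.mp hm _).mp w.2
      have h2 : (m⁻¹ * w * m) * (v : G) = (v : G) * (m⁻¹ * w * m) :=
        congrArg Subtype.val (mem_center_iff.mp hv ⟨_, hw⟩)
      refine Subtype.ext ?_
      show (w : G) * (m * v * m⁻¹) = m * v * m⁻¹ * w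
      calc (w : G) * (m * v * m⁻¹) = m * ((m⁻¹ * w * m) * v) * m⁻¹ := by group
        _ = m * ((v : G) * (m⁻¹ * w * m)) * m⁻¹ := by rw [h2]
        _ = m * v * m⁻¹ * w := by group
    intro m hm
    rw [mem_normalizer_iff]
    intro v
    refine ⟨key m hm v, fun hv => ?_⟩
    have := key m⁻¹ (inv_mem hm) _ hv
    simpa [mul_assoc] using this
  letI : CommGroup V := { (inferInstance : Group V) with mul_comm := hVc.is_comm.comm }
  letI : MulDistribMulAction (normalizer (V : Set G)) V :=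
    MulDistribMulAction.compHom V (normalizerMonoidHom V)
  set xA : normalizer (V : Set G) := ⟨x, hMV (x₁ : M).2⟩ with hxA
  set yA : normalizer (V : Set G) := ⟨(y : G), hMV y.2⟩ with hyA
  have hzA : ∀ z : normalizer (V : Set G), z ∈ zpowers xA → (z : G) ∈ zpowers x := by
    intro z hz
    obtain ⟨j, rfl⟩ := mem_zpowers_iff.mp hz
    exact mem_zpowers_iff.mpr ⟨j, by simp [hxA]⟩
  have key := pow_card_eq_one_of_norms (V := V) (x := xA) (y := yA) h.prime.pos
    (fun z hz i => by
      obtain ⟨j, hj⟩ := mem_zpowers_iff.mp (hyxz i _ (hzA z hz))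
      exact mem_zpowers_iff.mpr ⟨j, Subtype.ext (by simpa [hxA, hyA] using hj)⟩)
    (fun z hz hz1 i hi hip e => by
      have e' : (z : G) * (y : G) ^ i = (y : G) ^ i * (z : G) := by
        simpa [hyA] using congrArg Subtype.val e
      have hyi : (y : G) ^ i ≠ 1 := fun e1 => by
        have := Nat.le_of_dvd hi (hyo' ▸ orderOf_dvd_of_pow_eq_one e1)
        omega
      have h3 := h.pow_eq_one_of_commute hyi (by rw [← pow_mul, mul_comm, pow_mul, hyp, one_pow])
        (Commute.symm e')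
      have h4 : orderOf (z : G) ∣ r := by
        obtain ⟨j, hj⟩ := mem_zpowers_iff.mp (hzA z hz)
        refine orderOf_dvd_of_pow_eq_one ?_
        rw [← hj, ← zpow_natCast, ← zpow_mul, mul_comm, zpow_mul, zpow_natCast, hxr, one_zpow]
      exact hz1 (Subtype.ext (orderOf_eq_one_iff.mp (Nat.Coprime.eq_one_of_dvd
        (((Nat.coprime_primes hr h.prime).mpr hrp).coprime_dvd_left h4)
        (orderOf_dvd_of_pow_eq_one h3)))))
    (fun v hv => by
      have e : x * (v : G) * x⁻¹ = v := congrArg Subtype.val hv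
      refine Subtype.ext (h.eq_one_of_commute (hexp _ (hVD v.2)) ?_
        ((mul_inv_eq_iff_eq_mul.mp e).symm : Commute (v : G) x))
      intro e1
      exact hrp ((Nat.dvd_prime h.prime).mp (hxo ▸ orderOf_dvd_of_pow_eq_one e1) |>.resolve_left hr.ne_one))
    (fun z hz v => by
      have h1 := mul_pow_eq_prod hVc (z * yA * z⁻¹).2 v p
      have hpg : IsPGroup p (V ⊔ zpowers ((z * yA * z⁻¹ : normalizer (V : Set G)) : G) : Subgroup G) := by
        rw [sup_comm]
        refine IsPGroup.to_sup_of_normal_right' (IsPGroup.of_card (n := 1) ?_) (hDp.to_le hVD)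
          (zpowers_le.mpr (z * yA * z⁻¹).2)
        rw [Nat.card_zpowers, pow_one]
        show orderOf ((z : G) * (y : G) * (z : G)⁻¹) = p
        rw [← MulAut.conj_apply, MulEquiv.orderOf_eq, hyo']
      have hy' : ((z * yA * z⁻¹ : normalizer (V : Set G)) : G) ^ p = 1 := by
        simp only [Subgroup.coe_mul, Subgroup.coe_inv, conj_pow, hyA, hyp]
        group
      rw [h.pow_eq_one_of_pgroup hpg (mul_mem (mem_sup_left v.2) (mem_sup_right (mem_zpowers _))),
        hy', mul_one] at h1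
      exact Subtype.ext h1.symm)
  obtain ⟨v, hv, hv1⟩ := hV1
  refine hv1 ?_
  have hcardx : Nat.card (zpowers xA) = r := by
    rw [Nat.card_zpowers, hxA, Subgroup.orderOf_mk, hxo]
  refine hnD v (hVD hv) ?_
  have := congrArg Subtype.val (key ⟨v, hv⟩)
  rwa [hcardx, Subgroup.coe_pow] at this

end Hyp

end Cfsg.Agent.OrderSpecPSL
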